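import Cfsg.Agent.H178.RG.Defs

/-!
# S5714, TEAM RG, B2': the Gram sequence of a pair is symmetric, the characteristic polynomial is selfdual
-/

set_option autoImplicit false

namespace Cfsg.Agent.H689.RG

open Cfsg Cfsg.Agent.OrdDiv Cfsg.Agent.H436 Cfsg.Agent.H178.RG
open Polynomial

variable {F : Type} [Field F] [Fintype F]

/-- `a ↦ a ^ s` is a ring homomorphism -/
theorem exists_sigma {s : ℕ} (hs : s = 1 ∨ s ^ 2 = Fintype.card F) : ∃ σ : F →+* F, ∀ a, σ a = a ^ s := by
  rcases hs with rfl | hs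
  · exact ⟨RingHom.id F, fun a => by simp⟩
  · obtain ⟨p, n, hp, hn⟩ : ∃ p n : ℕ, p.Prime ∧ CharP F p ∧ Fintype.card F = p ^ n := by
      obtain ⟨p, hc⟩ := CharP.exists F
      obtain ⟨n, hp, hn⟩ := FiniteField.card F p
      exact ⟨p, n, hp, hc, hn⟩
    obtain ⟨hc, hn⟩ := hn
    have : Fact p.Prime := ⟨hp⟩
    have h1 : s ∣ p ^ n := by rw [← hn, ← hs]; exact dvd_pow_self _ two_ne_zero
    obtain ⟨k, _, rfl⟩ := (Nat.dvd_prime_pow hp).1 h1
    exact ⟨iterateFrobenius F p k, fun a => iterateFrobenius_def p k a⟩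

section

variable {ι : Type} [Fintype ι] [DecidableEq ι] {s : ℕ} {ε : F} {B : (ι → F) → (ι → F) → F}

theorem s_pos (hB : IsForm s ε B) : 0 < s := by
  rcases hB.hs with h | h
  · omega
  · rcases Nat.eq_zero_or_pos s with h0 | h0
    · subst h0
      have := Fintype.card_pos (α := F)
      simp at h
      omega
    · exact h0

theorem B_zero_left (hB : IsForm s ε B) (w : ι → F) : B 0 w = 0 := by
  have := hB.smul_left 0 0 w
  simpa using this

theorem B_sum_left (hB : IsForm s ε B) {κ : Type} (t : Finset κ) (a : κ → F) (u : κ → ι → F) (w : ι → F) :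
    B (∑ i ∈ t, a i • u i) w = ∑ i ∈ t, a i * B (u i) w := by
  classical
  induction t using Finset.induction_on with
  | empty => simp [B_zero_left hB]
  | insert i t hi ih => rw [Finset.sum_insert hi, Finset.sum_insert hi, hB.add_left, hB.smul_left, ih]

end

theorem symSeq_of {ι : Type} [Fintype ι] [DecidableEq ι] {G : Type} [Group G] (ρ : G →* Matrix ι ι F)
    {s : ℕ} {ε : F} {B : (ι → F) → (ι → F) → F} (hB : IsForm s ε B)
    (hρ : ∀ g v w, B ((ρ g).mulVec v) ((ρ g).mulVec w) = B v w) {f : F[X]} {x : G} {v : ι → F} (h : Ann (ρ x) v f) :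
    (fun i : ℤ => B ((ρ (x ^ i)).mulVec v) v) ∈ SymSeq s ε f := by
  refine ⟨fun m => ?_, fun i => ?_⟩
  · have h0 : (aeval (ρ x) f).mulVec v = 0 := (h f).2 dvd_rfl
    have h1 : (ρ (x ^ m)).mulVec ((aeval (ρ x) f).mulVec v) =
        ∑ i ∈ f.support, f.coeff i • (ρ (x ^ (m + i))).mulVec v := by
      rw [aeval_def, eval₂_eq_sum, Polynomial.sum, Matrix.sum_mulVec, Matrix.mulVec_sum]
      refine Finset.sum_congr rfl fun i _ => ?_
      rw [← Algebra.smul_def, Matrix.smul_mulVec, Matrix.mulVec_smul, Matrix.mulVec_mulVec, ← map_pow, ← map_mul,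
        zpow_add, zpow_natCast]
    rw [h0, Matrix.mulVec_zero] at h1
    have h2 := congrArg (fun u => B u v) h1
    simp only [B_zero_left hB, B_sum_left hB] at h2
    exact h2.symm
  · have h1 := hρ (x ^ i) ((ρ (x ^ (-i))).mulVec v) v
    rw [Matrix.mulVec_mulVec, ← map_mul, ← zpow_add, add_neg_cancel, zpow_zero, map_one, Matrix.one_mulVec] at h1
    show B ((ρ (x ^ (-i))).mulVec v) v = ε * B ((ρ (x ^ i)).mulVec v) v ^ s
    rw [← h1]
    exact hB.symm _ _

/-- the Gram matrix -/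
noncomputable def gram {ι : Type} [Fintype ι] [DecidableEq ι] (B : (ι → F) → (ι → F) → F) : Matrix ι ι F :=
  Matrix.of fun i j => B (Pi.single i 1) (Pi.single j 1)

section

variable {ι : Type} [Fintype ι] [DecidableEq ι] {s : ℕ} {ε : F} {B : (ι → F) → (ι → F) → F}

theorem B_sum_right (hB : IsForm s ε B) {σ : F →+* F} (hσ : ∀ a, σ a = a ^ s) {κ : Type} (t : Finset κ) (a : κ → F)
    (u : κ → ι → F) (w : ι → F) : B w (∑ i ∈ t, a i • u i) = ∑ i ∈ t, σ (a i) * B w (u i) := by
  rw [hB.symm (∑ i ∈ t, a i • u i) w, B_sum_left hB, ← hσ, map_sum, Finset.mul_sum]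
  refine Finset.sum_congr rfl fun i _ => ?_
  rw [map_mul, hB.symm (u i) w, ← hσ]
  ring

theorem vec_eq (v : ι → F) : v = ∑ i, v i • (Pi.single i 1 : ι → F) := by
  ext j
  simp [Finset.sum_apply, Pi.single_apply]

theorem B_eq (hB : IsForm s ε B) {σ : F →+* F} (hσ : ∀ a, σ a = a ^ s) (v w : ι → F) :
    B v w = v ⬝ᵥ (gram B).mulVec (fun i => σ (w i)) := by
  conv_lhs => rw [vec_eq v, vec_eq w]
  rw [B_sum_left hB]
  simp only [B_sum_right hB hσ, dotProduct, Matrix.mulVec, gram, Matrix.of_apply]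
  refine Finset.sum_congr rfl fun i _ => ?_
  congr 1
  exact Finset.sum_congr rfl fun j _ => mul_comm _ _

theorem gram_unit (hB : IsForm s ε B) {σ : F →+* F} (hσ : ∀ a, σ a = a ^ s) : IsUnit (gram B) := by
  rw [← Matrix.isUnit_transpose]
  rw [← Matrix.mulVec_injective_iff_isUnit]
  intro v w hvw
  have h0 : (gram B).transpose.mulVec (v - w) = 0 := by
    rw [Matrix.mulVec_sub]; exact sub_eq_zero.2 hvw
  have h1 : v - w = 0 := by
    refine hB.nondeg _ fun u => ?_
    rw [B_eq hB hσ, Matrix.dotProduct_mulVec, ← Matrix.mulVec_transpose, h0, zero_dotProduct]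
  exact sub_eq_zero.1 h1

theorem gram_conj (hB : IsForm s ε B) {σ : F →+* F} (hσ : ∀ a, σ a = a ^ s) {A : Matrix ι ι F}
    (hA : ∀ v w, B (A.mulVec v) (A.mulVec w) = B v w) :
    A.transpose * gram B * A.map σ = gram B := by
  ext i j
  have h := hA (Pi.single i 1) (Pi.single j 1)
  rw [B_eq hB hσ] at h
  have h2 : (fun k => σ (A.mulVec (Pi.single j 1) k)) = fun k => (A.map σ) k j := by
    ext k
    simp [Matrix.map_apply]
  rw [h2] at h
  show _ = B (Pi.single i 1) (Pi.single j 1)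
  rw [← h, Matrix.mul_assoc, Matrix.mul_apply]
  simp only [dotProduct, Matrix.mulVec_single_one, Matrix.transpose_apply, Matrix.col_apply]
  rfl

end

theorem dual_charpoly {ι : Type} [Fintype ι] [DecidableEq ι] {G : Type} [Group G] (ρ : G →* Matrix ι ι F)
    {s : ℕ} {ε : F} {B : (ι → F) → (ι → F) → F} (hB : IsForm s ε B)
    (hρ : ∀ g v w, B ((ρ g).mulVec v) ((ρ g).mulVec w) = B v w) (x : G) :
    dualP s (ρ x).charpoly = (ρ x).charpoly := by
  obtain ⟨σ, hσ⟩ := exists_sigma hB.hs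
  set A := ρ x with hAdef
  set M := gram B with hMdef
  have hc : A.transpose * M * A.map σ = M := gram_conj hB hσ (hρ x)
  have hM : IsUnit M := gram_unit hB hσ
  have hA : IsUnit A := by
    refine ⟨⟨ρ x, ρ x⁻¹, ?_, ?_⟩, rfl⟩
    · rw [← map_mul, mul_inv_cancel, map_one]
    · rw [← map_mul, inv_mul_cancel, map_one]
  have hAt : IsUnit A.transpose := (Matrix.isUnit_transpose A).2 hA
  have hAd : A.transpose.det ≠ 0 := ((Matrix.isUnit_iff_isUnit_det _).1 hAt).ne_zero
  obtain ⟨U, hU⟩ := hM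
  have h1 : A.map σ = (↑U⁻¹ : Matrix ι ι F) * (A.transpose)⁻¹ * (↑U : Matrix ι ι F) := by
    rw [← hU] at hc
    have h2 : (↑U⁻¹ : Matrix ι ι F) * (A.transpose)⁻¹ * (A.transpose * (↑U : Matrix ι ι F) * A.map σ) = A.map σ := by
      rw [Matrix.mul_assoc, Matrix.mul_assoc A.transpose, ← Matrix.mul_assoc (A.transpose)⁻¹,
        Matrix.nonsing_inv_mul _ ((Matrix.isUnit_iff_isUnit_det _).1 hAt), Matrix.one_mul, ← Matrix.mul_assoc,
        Units.inv_mul, Matrix.one_mul]
    rw [hc] at h2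
    exact h2.symm
  have h3 : A.charpoly.map σ = ((A.transpose)⁻¹).charpoly := by
    rw [← Matrix.charpoly_map, h1, Matrix.coe_units_inv, Matrix.charpoly_units_conj']
  obtain ⟨c, h4⟩ : ∃ c : F, A.charpoly.map σ = C c * A.charpoly.reverse := by
    refine ⟨(-1) ^ Fintype.card ι * (A.transpose.det)⁻¹, ?_⟩
    rw [h3, Matrix.charpoly_inv _ hAt, ← Matrix.reverse_charpoly, Matrix.charpoly_transpose, C_mul, Ring.inverse_eq_inv]
    simp
  set f := A.charpoly with hf
  have hmon : f.Monic := Matrix.charpoly_monic A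
  have h5 : ∀ i ≤ f.natDegree, (f.coeff i) ^ s = c * f.coeff (f.natDegree - i) := by
    intro i hi
    have h6 := congrArg (fun g => g.coeff i) h4
    simp only [coeff_map, coeff_C_mul, coeff_reverse] at h6
    rw [revAt_le hi, hσ] at h6
    exact h6
  have hc0 : (f.coeff 0) ^ s = c := by
    rw [h5 0 (Nat.zero_le _), Nat.sub_zero, hmon.coeff_natDegree, mul_one]
  have hcne : c ≠ 0 := by
    intro h0
    rw [h0, C_0, zero_mul] at h4
    have : (f.map σ).leadingCoeff = 0 := by rw [h4, leadingCoeff_zero]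
    rw [(hmon.map σ).leadingCoeff] at this
    exact one_ne_zero this
  unfold dualP
  rw [hc0]
  have h7 : (f.sum fun i a => C (a ^ s) * X ^ (f.natDegree - i)) = C c * f := by
    rw [Polynomial.sum_over_range f (fun n => by rw [zero_pow (s_pos hB).ne', C_0, zero_mul])]
    have h8 : ∀ i ∈ Finset.range (f.natDegree + 1), C (f.coeff i ^ s) * X ^ (f.natDegree - i) =
        C c * (C (f.coeff (f.natDegree - i)) * X ^ (f.natDegree - i)) := by
      intro i hi
      rw [h5 i (by rw [Finset.mem_range] at hi; omega), C_mul, mul_assoc]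
    rw [Finset.sum_congr rfl h8, ← Finset.mul_sum]
    congr 1
    conv_rhs => rw [f.as_sum_range_C_mul_X_pow]
    exact Finset.sum_range_reflect (fun i => C (f.coeff i) * X ^ i) (f.natDegree + 1)
  rw [h7, ← mul_assoc, ← C_mul, inv_mul_cancel₀ hcne, C_1, one_mul]

end Cfsg.Agent.H689.RG
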