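import Cfsg.Agent.H50.RG.LStmts
import Cfsg.Agent.H450.Bs.Herm
import Cfsg.Agent.H450.UF.Sub

/-! # S5714, RG-L06: Witt's theorem for frames of totally isotropic subspaces of hermitian spaces, determinant one -/

set_option autoImplicit false

namespace Cfsg.Agent.H689.RG

open Module Cfsg.Agent.H847.Bs Cfsg.Agent.H50.RG

theorem l06 : L06 := by
  intro F V _ _ _ _ _ r Φ hΦ k₀ hk₀ k hk b b' hb hb' hT hT'
  have := Fintype.ofFinite F
  have hF : Fintype.card F = r ^ 2 := by rw [← Nat.card_eq_fintype_card]; exact hΦ.card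
  have hm : ∀ (c : Fin k → V) (i : Fin k), c i ∈ Submodule.span F (Set.range c) := fun c i =>
    Submodule.subset_span ⟨i, rfl⟩
  obtain ⟨g, hg, hd, hgb⟩ := Cfsg.Agent.H450.UF.witt_su_small (Cfsg.Agent.H450.Bs.hform_toB hF hΦ) hb hb'
    (fun i j => (hT.1 _ (hm b j) _ (hm b i)).trans (hT'.1 _ (hm b' j) _ (hm b' i)).symm)
    (by rw [Fintype.card_fin]; omega)
  exact ⟨g, ⟨(Cfsg.Agent.H450.Bs.iso_iff hF hΦ).2 hg, hd⟩, hgb⟩

end Cfsg.Agent.H689.RG
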